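import Mathlib
import Cfsg.Agent.H1.Basic
import Cfsg.Agent.L0.Coprime2

set_option autoImplicit false
set_option linter.style.haveILetI false
set_option linter.unusedVariables false

/-! A Klein four-group acting on a p-group. -/

namespace Cfsg.Agent.H1

open Cfsg Subgroup commutatorElement

universe u

theorem s3190_aux {X : Type u} [Group X] [Finite X]
    {p : ℕ} (hp : p.Prime) (hodd : Odd p) (P T R : Subgroup X) (hP : IsPGroup p ↥P) (hT : IsKleinFour ↥T)
    (hTP : T ≤ Subgroup.normalizer (P : Set X)) (hRP : R ≤ P) (hRn : (R.subgroupOf P).Normal)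
    (hTR : T ≤ Subgroup.normalizer (R : Set X)) (hfac : R ⊔ (P ⊓ Subgroup.centralizer (T : Set X)) = P)
    (hZ : T ≤ Subgroup.centralizer (((Subgroup.center ↥P).map P.subtype : Subgroup X) : Set X)) :
    T ≤ Subgroup.centralizer (((Subgroup.center ↥R).map R.subtype : Subgroup X) : Set X) := by
  haveI : Fact p.Prime := ⟨hp⟩
  obtain ⟨V, hVdef⟩ : ∃ V, V = (Subgroup.center ↥R).map R.subtype := ⟨_, rfl⟩
  rw [← hVdef]
  have hV : ∀ v : X, v ∈ V ↔ v ∈ R ∧ ∀ r ∈ R, r * v = v * r := by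
    intro v
    rw [hVdef]
    constructor
    · rintro ⟨⟨w, hw⟩, hwc, rfl⟩
      exact ⟨hw, fun r hr => congrArg Subtype.val (mem_center_iff.mp hwc ⟨r, hr⟩)⟩
    · rintro ⟨hv, hc⟩
      exact ⟨⟨v, hv⟩, mem_center_iff.mpr (fun r => Subtype.ext (hc r r.2)), rfl⟩
  have hVR : V ≤ R := fun v hv => ((hV v).mp hv).1
  -- anything normalizing R normalizes V
  have hnorm : ∀ x ∈ normalizer (R : Set X), ∀ v ∈ V, x * v * x⁻¹ ∈ V := by
    intro x hx v hv
    obtain ⟨h1, h2⟩ := (hV v).mp hv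
    refine (hV _).mpr ⟨(mem_normalizer_iff.mp hx v).mp h1, fun r hr => ?_⟩
    have h3 : x⁻¹ * r * x⁻¹⁻¹ ∈ R := (mem_normalizer_iff.mp (inv_mem hx) r).mp hr
    have h4 := h2 _ h3
    calc r * (x * v * x⁻¹) = x * ((x⁻¹ * r * x⁻¹⁻¹) * v) * x⁻¹ := by group
      _ = x * (v * (x⁻¹ * r * x⁻¹⁻¹)) * x⁻¹ := by rw [h4]
      _ = x * v * x⁻¹ * r := by group
  have hPR : P ≤ normalizer (R : Set X) := by
    intro x hx
    apply mem_normalizer_of_conj_mem
    intro r hr
    have := hRn.conj_mem ⟨r, hRP hr⟩ hr ⟨x, hx⟩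
    exact this
  have hTV : T ≤ normalizer (V : Set X) := fun t ht => mem_normalizer_of_conj_mem (hnorm t (hTR ht))
  obtain ⟨W, hWdef⟩ : ∃ W, W = ⁅V, T⁆ := ⟨_, rfl⟩
  have hWV : W ≤ V := by
    rw [hWdef, commutator_le]
    intro v hv t ht
    have e : ⁅v, t⁆ = v * (t * v⁻¹ * t⁻¹) := by rw [commutatorElement_def]; group
    rw [e]
    exact mul_mem hv (hnorm t (hTR ht) _ (inv_mem hv))
  have hcop : (Nat.card T).Coprime (Nat.card V) := by
    obtain ⟨n, hn⟩ := IsPGroup.iff_card.mp (hP.to_le (hVR.trans hRP))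
    rw [hn, hT.card_four]
    apply Nat.Coprime.pow_right
    exact (Nat.Coprime.pow_left 2 (Nat.coprime_two_left.mpr hodd) : Nat.Coprime (2 ^ 2) p)
  have hab : ∀ a ∈ V, ∀ b ∈ V, a * b = b * a := fun a ha b hb => ((hV b).mp hb).2 a (hVR ha)
  have hbot := Cfsg.Agent.L0.centralizer_inf_commutator_of_abelian hTV hcop hab
  have hPW : P ≤ normalizer (W : Set X) := by
    rw [← hfac]
    apply sup_le
    · intro r hr
      apply mem_normalizer_of_conj_mem
      intro w hw
      have h1 := ((hV w).mp (hWV hw)).2 r hr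
      rw [h1, mul_inv_cancel_right]; exact hw
    · rintro c ⟨hcP, hcT⟩
      apply mem_normalizer_of_conj_mem
      intro w hw
      rw [hWdef] at hw ⊢
      have h1 : (⁅V, T⁆ : Subgroup X) ≤ (⁅V, T⁆ : Subgroup X).comap (MulAut.conj c).toMonoidHom := by
        rw [commutator_le]
        intro v hv t ht
        rw [mem_comap]
        change MulAut.conj c ⁅v, t⁆ ∈ (⁅V, T⁆ : Subgroup X)
        rw [map_commutatorElement]
        have e2 : MulAut.conj c t = t := by
          rw [MulAut.conj_apply, ← mem_centralizer_iff.mp hcT t ht, mul_inv_cancel_right]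
        rw [e2]
        exact commutator_mem_commutator (hnorm c (hPR hcP) v hv) ht
      exact h1 hw
  have hW1 : W = ⊥ := by
    by_contra hne
    have hWP : W ≤ P := (hWV.trans hVR).trans hRP
    haveI : Group.IsNilpotent P := hP.isNilpotent
    haveI : (W.subgroupOf P).Normal := by
      constructor
      intro w hw x
      rw [mem_subgroupOf] at hw ⊢
      exact (mem_normalizer_iff.mp (hPW x.2) _).mp hw
    have hne2 : W.subgroupOf P ≠ ⊥ := by
      intro h
      rw [subgroupOf_eq_bot] at h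
      apply hne
      rw [eq_bot_iff]
      intro t ht
      exact h.le_bot ⟨ht, hWP ht⟩
    obtain ⟨⟨s, hsW, hsc⟩, hs1⟩ := Subgroup.ne_bot_iff_exists_ne_one.mp (inf_center_ne_bot _ hne2)
    have hsW' : (s : X) ∈ W := hsW
    have h1 : (s : X) ∈ centralizer (T : Set X) := by
      rw [mem_centralizer_iff]
      intro t ht
      exact (mem_centralizer_iff.mp (hZ ht) (s : X) ⟨s, hsc, rfl⟩).symm
    have h2 : (s : X) ∈ (V ⊓ Subgroup.centralizer (T : Set X)) ⊓ ⁅V, T⁆ :=
      mem_inf.mpr ⟨mem_inf.mpr ⟨hWV hsW', h1⟩, by rw [← hWdef]; exact hsW'⟩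
    rw [hbot, mem_bot] at h2
    exact hs1 (Subtype.ext (Subtype.ext h2))
  rw [hWdef, commutator_comm, commutator_eq_bot_iff_le_centralizer] at hW1
  exact hW1

end Cfsg.Agent.H1
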