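import Mathlib
import Cfsg.Agent.H1.Invol

set_option autoImplicit false
set_option linter.unusedVariables false
set_option linter.unusedSectionVars false
set_option linter.unusedSimpArgs false

namespace Cfsg.Agent.H1

open Cfsg Subgroup

/-- two non-conjugate involutions commute with a common involution -/
theorem exists_common_invol {G : Type*} [Group G] [Finite G] {x w : G} (hx : x * x = 1) (hw : w * w = 1) (hnc : ¬ IsConj x w) :
    ∃ u : G, orderOf u = 2 ∧ Commute u x ∧ Commute u w := by
  have hwx : w = (x * w)⁻¹ * x := by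
    have hxi : x⁻¹ = x := inv_eq_of_mul_eq_one_right hx
    have hwi : w⁻¹ = w := inv_eq_of_mul_eq_one_right hw
    rw [_root_.mul_inv_rev, hxi, hwi, mul_assoc, hx, mul_one]
  rcases Nat.even_or_odd (orderOf (x * w)) with ⟨k, hk⟩ | ⟨k, hk⟩
  · have hk0 : 0 < k := by
      have := orderOf_pos (x * w)
      omega
    have h1 : (x * w) ^ k * (x * w) ^ k = 1 := by rw [← pow_add, ← hk, pow_orderOf_eq_one]
    have h2 : (x * w) ^ k ≠ 1 := by
      intro h
      have := Nat.le_of_dvd hk0 (orderOf_dvd_of_pow_eq_one h)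
      omega
    have h3 : Commute ((x * w) ^ k) x := by
      have h4 := invol_mul_zpow hx hw (k : ℤ)
      rw [zpow_neg, zpow_natCast, inv_eq_of_mul_eq_one_left h1] at h4
      exact h4.symm
    refine ⟨(x * w) ^ k, orderOf_eq_two_iff'.mpr ⟨h2, h1⟩, h3, ?_⟩
    rw [hwx]
    have h5 : Commute ((x * w) ^ k) (x * w) := (Commute.refl (x * w)).pow_left k
    conv_lhs => rw [← hwx]
    exact h5.inv_right.mul_right h3
  · exfalso
    apply hnc
    rw [isConj_iff]
    refine ⟨(x * w) ^ k, ?_⟩
    have h4 := invol_mul_zpow hx hw (-(k : ℤ))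
    rw [neg_neg, zpow_neg, zpow_natCast] at h4
    have h1 : (x * w) ^ (2 * k + 1) = 1 := by rw [← hk, pow_orderOf_eq_one]
    have h5 : (x * w) ^ k * (x * w) ^ k = (x * w)⁻¹ := by
      rw [← pow_add, ← two_mul]
      apply eq_inv_of_mul_eq_one_left
      rw [← pow_succ]; exact h1
    rw [mul_assoc, h4, ← mul_assoc, h5, ← hwx]

end Cfsg.Agent.H1
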