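import Mathlib
import Cfsg.Prelude.Def_SolvableStructure
import Cfsg.Agent.H1.Hall

open scoped commutatorElement Pointwise

namespace Cfsg.Agent.H1

open Cfsg Subgroup

/-- normal subgroups reachable by a normal chain with cyclic factors -/
inductive SChain {G : Type*} [Group G] : Subgroup G → Prop
  | bot : SChain ⊥
  | step (H K : Subgroup G) (g : G) : SChain H → K.Normal → K = H ⊔ zpowers g → SChain K

theorem SChain.normal {G : Type*} [Group G] {K : Subgroup G} (h : SChain K) : K.Normal := by
  cases h with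
  | bot => infer_instance
  | step H K g h hK e => exact hK

theorem isSupersolvable_iff {G : Type*} [Group G] : IsSupersolvable G ↔ SChain (⊤ : Subgroup G) := by
  constructor
  · rintro ⟨n, H, h0, hn, hnorm, hstep⟩
    have key : ∀ i : Fin (n + 1), SChain (H i) := by
      intro i
      induction i using Fin.induction with
      | zero => rw [h0]; exact SChain.bot
      | succ i ih =>
        obtain ⟨g, hg⟩ := hstep i
        exact SChain.step _ _ g ih (hnorm _) hg
    rw [← hn]
    exact key _
  · intro h
    have key : ∀ K : Subgroup G, SChain K → ∃ (n : ℕ) (H : Fin (n + 1) → Subgroup G),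
        H 0 = ⊥ ∧ H (Fin.last n) = K ∧ (∀ i, (H i).Normal) ∧
        ∀ i : Fin n, ∃ g : G, H i.succ = H i.castSucc ⊔ Subgroup.zpowers g := by
      intro K hK
      induction hK with
      | bot =>
        exact ⟨0, fun _ => ⊥, rfl, rfl, fun _ => inferInstance, fun i => i.elim0⟩
      | step H K g h hKn e ih =>
        obtain ⟨n, F, h0, hn, hnorm, hstep⟩ := ih
        refine ⟨n + 1, Fin.snoc F K, ?_, ?_, ?_, ?_⟩
        · have : (0 : Fin (n + 2)) = Fin.castSucc (0 : Fin (n + 1)) := rfl
          rw [this, Fin.snoc_castSucc]; exact h0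
        · rw [Fin.snoc_last]
        · intro i
          refine Fin.lastCases ?_ (fun i => ?_) i
          · rw [Fin.snoc_last]; exact hKn
          · rw [Fin.snoc_castSucc]; exact hnorm i
        · intro i
          refine Fin.lastCases ?_ (fun i => ?_) i
          · refine ⟨g, ?_⟩
            rw [Fin.succ_last, Fin.snoc_last, Fin.snoc_castSucc, hn]
            exact e
          · obtain ⟨g, hg⟩ := hstep i
            refine ⟨g, ?_⟩
            rw [← Fin.castSucc_succ, Fin.snoc_castSucc, Fin.snoc_castSucc]
            exact hg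
    exact key ⊤ h

theorem SChain.map {G H : Type*} [Group G] [Group H] (f : G →* H) (hf : Function.Surjective f) {K : Subgroup G}
    (h : SChain K) : SChain (K.map f) := by
  induction h with
  | bot => rw [Subgroup.map_bot]; exact SChain.bot
  | step A K g h hK e ih =>
    refine SChain.step _ _ (f g) ih (hK.map f hf) ?_
    rw [e, Subgroup.map_sup, MonoidHom.map_zpowers]

/-- a subgroup between `A` and `A⟨g⟩` is `A⟨l⟩` -/
theorem exists_zpowers_sup {G : Type*} [Group G] {A L : Subgroup G} [hA : A.Normal] {g : G} (hAL : A ≤ L) (hL : L ≤ A ⊔ zpowers g) :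
    ∃ l ∈ L, L = A ⊔ zpowers l := by
  have hcyc : IsCyclic (L.map (QuotientGroup.mk' A)) := by
    have hle : L.map (QuotientGroup.mk' A) ≤ zpowers (QuotientGroup.mk' A g) := by
      refine (Subgroup.map_mono hL).trans ?_
      rw [Subgroup.map_sup, MonoidHom.map_zpowers]
      apply sup_le _ le_rfl
      rw [Subgroup.map_le_iff_le_comap]
      intro x hx
      have h1 : QuotientGroup.mk' A x = 1 := (QuotientGroup.eq_one_iff x).mpr hx
      rw [Subgroup.mem_comap, h1]
      exact Subgroup.one_mem _
    exact isCyclic_of_injective (Subgroup.inclusion hle) (Subgroup.inclusion_injective hle)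
  obtain ⟨⟨_, l, hl, rfl⟩, hgen⟩ := hcyc.exists_generator
  refine ⟨l, hl, ?_⟩
  apply le_antisymm
  · intro x hx
    obtain ⟨k, hk⟩ := mem_zpowers_iff.mp (hgen ⟨_, x, hx, rfl⟩)
    have h1 : (QuotientGroup.mk' A l) ^ k = QuotientGroup.mk' A x := congrArg Subtype.val hk
    rw [← map_zpow] at h1
    have h2 : (l ^ k)⁻¹ * x ∈ A := by rw [← QuotientGroup.eq]; exact h1
    have e : x = (l ^ k) * ((l ^ k)⁻¹ * x) := by group
    rw [e]
    exact Subgroup.mul_mem _ ((le_sup_right : zpowers l ≤ A ⊔ zpowers l) (zpow_mem (mem_zpowers l) k)) ((le_sup_left : A ≤ _) h2)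
  · apply sup_le hAL
    rw [zpowers_le]; exact hl

theorem SChain.subgroupOf {G : Type*} [Group G] (H : Subgroup G) {K : Subgroup G} (h : SChain K) :
    SChain (K.subgroupOf H) := by
  induction h with
  | bot =>
    have : (⊥ : Subgroup G).subgroupOf H = ⊥ := by rw [subgroupOf_eq_bot]; exact disjoint_bot_left
    rw [this]; exact SChain.bot
  | step A K g h hK e ih =>
    haveI := h.normal
    haveI := hK
    -- L = K ∩ H, contained in A ⊔ ⟨g⟩
    have h1 : A ≤ A ⊔ (K ⊓ H) := le_sup_left
    have h2 : A ⊔ (K ⊓ H) ≤ A ⊔ zpowers g := by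
      rw [← e]; exact sup_le (by rw [e]; exact le_sup_left) inf_le_left
    obtain ⟨l, hl, hl2⟩ := exists_zpowers_sup h1 h2
    -- adjust l to be in K ⊓ H
    obtain ⟨a, ha, m, hm, rfl⟩ := mem_sup_of_normal_left.mp hl
    refine SChain.step _ _ ⟨m, hm.2⟩ ih inferInstance ?_
    apply le_antisymm
    · intro x hx
      have hxK : (x : G) ∈ K ⊓ H := ⟨hx, x.2⟩
      have h3 : (x : G) ∈ A ⊔ zpowers (a * m) := by rw [← hl2]; exact (le_sup_right : K ⊓ H ≤ _) hxK
      obtain ⟨b, hb, y, hy, e2⟩ := mem_sup_of_normal_left.mp h3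
      obtain ⟨k, rfl⟩ := mem_zpowers_iff.mp hy
      -- (a m)^k = c m^k with c ∈ A
      have h4 : (a * m) ^ k * (m ^ k)⁻¹ ∈ A := by
        rw [← QuotientGroup.eq_one_iff (N := A), QuotientGroup.mk_mul, QuotientGroup.mk_zpow, QuotientGroup.mk_mul,
          (QuotientGroup.eq_one_iff a).mpr ha, one_mul, ← QuotientGroup.mk_zpow, ← QuotientGroup.mk_mul, mul_inv_cancel]
        rfl
      have h5 : (x : G) = (b * ((a * m) ^ k * (m ^ k)⁻¹)) * m ^ k := by rw [← e2]; group
      have h6 : (x : G) * (m ^ k)⁻¹ ∈ A := by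
        rw [h5]
        have : b * ((a * m) ^ k * (m ^ k)⁻¹) * m ^ k * (m ^ k)⁻¹ = b * ((a * m) ^ k * (m ^ k)⁻¹) := by group
        rw [this]; exact A.mul_mem hb h4
      have h7 : x = (x * (⟨m, hm.2⟩ ^ k)⁻¹) * ⟨m, hm.2⟩ ^ k := by group
      rw [h7]
      refine Subgroup.mul_mem _ ((le_sup_left : A.subgroupOf H ≤ _) ?_) ((le_sup_right : zpowers (⟨m, hm.2⟩ : H) ≤ _) (zpow_mem (mem_zpowers _) k))
      rw [mem_subgroupOf]; push_cast; exact h6
    · apply sup_le
      · apply Subgroup.comap_mono
        rw [e]; exact le_sup_left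
      · rw [zpowers_le]; exact hm.1

/-- chains lift through a surjection from a chain for the kernel -/
theorem SChain.comap_of_ker {G H : Type*} [Group G] [Group H] (f : G →* H) (hf : Function.Surjective f)
    (hker : SChain f.ker) {K : Subgroup H} (h : SChain K) : SChain (K.comap f) := by
  induction h with
  | bot => exact hker
  | step A K x h hK e ih =>
    obtain ⟨g, rfl⟩ := hf x
    haveI := h.normal
    refine SChain.step _ _ g ih (hK.comap f) ?_
    apply le_antisymm
    · intro y hy
      rw [mem_comap, e] at hy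
      obtain ⟨a, ha, z, hz, e2⟩ := mem_sup_of_normal_left.mp hy
      obtain ⟨k, rfl⟩ := mem_zpowers_iff.mp hz
      have h1 : y * (g ^ k)⁻¹ ∈ A.comap f := by
        rw [mem_comap, map_mul, map_inv, map_zpow, ← e2]
        have : a * f g ^ k * (f g ^ k)⁻¹ = a := by group
        rw [this]; exact ha
      have h2 : y = (y * (g ^ k)⁻¹) * g ^ k := by group
      rw [h2]
      exact Subgroup.mul_mem _ ((le_sup_left : A.comap f ≤ _) h1) ((le_sup_right : zpowers g ≤ _) (zpow_mem (mem_zpowers g) k))
    · rw [e]
      apply sup_le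
      · exact Subgroup.comap_mono le_sup_left
      · rw [zpowers_le, mem_comap]
        exact (le_sup_right : zpowers (f g) ≤ _) (mem_zpowers _)

/-- The commutator subgroup centralizes a cyclic normal subgroup. -/
theorem commutator_centralizes_cyclic {Q : Type*} [Group Q] {b : Q} (hb : (zpowers b).Normal) :
    commutator Q ≤ centralizer {b} := by
  have hconj : ∀ g : Q, ∃ k : ℤ, g⁻¹ * b * g = b ^ k := by
    intro g
    have := hb.conj_mem b (mem_zpowers b) g⁻¹
    rw [inv_inv] at this
    obtain ⟨k, hk⟩ := mem_zpowers_iff.mp this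
    exact ⟨k, hk.symm⟩
  rw [commutator_def, commutator_le]
  intro g _ h _
  rw [mem_centralizer_singleton_iff]
  obtain ⟨k, hk⟩ := hconj g
  obtain ⟨l, hl⟩ := hconj h
  have h1 : g⁻¹ * h⁻¹ * b * h * g = h⁻¹ * g⁻¹ * b * g * h := by
    calc g⁻¹ * h⁻¹ * b * h * g = g⁻¹ * (h⁻¹ * b * h) * g := by group
      _ = g⁻¹ * (b ^ l) * g := by rw [hl]
      _ = (g⁻¹ * b * g) ^ l := by
            have := conj_zpow (i := l) (a := g⁻¹) (b := b)
            rw [inv_inv] at this
            exact this.symm
      _ = b ^ (k * l) := by rw [hk, zpow_mul]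
      _ = b ^ (l * k) := by rw [mul_comm]
      _ = (h⁻¹ * b * h) ^ k := by rw [hl, zpow_mul]
      _ = h⁻¹ * (b ^ k) * h := by
            have := conj_zpow (i := k) (a := h⁻¹) (b := b)
            rw [inv_inv] at this
            exact this
      _ = h⁻¹ * (g⁻¹ * b * g) * h := by rw [hk]
      _ = _ := by group
  rw [commutatorElement_def]
  calc g * h * g⁻¹ * h⁻¹ * b = g * h * (g⁻¹ * h⁻¹ * b * h * g) * (g⁻¹ * h⁻¹) := by group
    _ = g * h * (h⁻¹ * g⁻¹ * b * g * h) * (g⁻¹ * h⁻¹) := by rw [h1]
    _ = _ := by group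

/-- `[K, G'] ≤ H` in a chain step. -/
theorem SChain.commutator_step {G : Type*} [Group G] {H K : Subgroup G} [hH : H.Normal] [hK : K.Normal] {g : G}
    (e : K = H ⊔ zpowers g) : ⁅K, commutator G⁆ ≤ H := by
  have hn : (zpowers (QuotientGroup.mk' H g)).Normal := by
    have h1 : K.map (QuotientGroup.mk' H) = zpowers (QuotientGroup.mk' H g) := by
      rw [e, Subgroup.map_sup, MonoidHom.map_zpowers]
      have : H.map (QuotientGroup.mk' H) = ⊥ := by
        rw [eq_bot_iff, map_le_iff_le_comap]
        intro x hx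
        have h1 : QuotientGroup.mk' H x = 1 := (QuotientGroup.eq_one_iff x).mpr hx
        rw [mem_comap, h1]
        exact Subgroup.one_mem _
      rw [this, bot_sup_eq]
    rw [← h1]
    exact hK.map _ (QuotientGroup.mk'_surjective H)
  have hc := commutator_centralizes_cyclic hn
  rw [commutator_le]
  intro k hk d hd
  have hd' : QuotientGroup.mk' H d ∈ commutator (G ⧸ H) := by
    have h1 : (commutator G).map (QuotientGroup.mk' H) ≤ commutator (G ⧸ H) := by
      rw [commutator_def, commutator_def, map_commutator]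
      exact commutator_mono le_top le_top
    exact h1 ⟨d, hd, rfl⟩
  have h2 := mem_centralizer_singleton_iff.mp (hc hd')
  rw [e] at hk
  obtain ⟨h, hh, z, hz, rfl⟩ := mem_sup_of_normal_left.mp hk
  obtain ⟨m, rfl⟩ := mem_zpowers_iff.mp hz
  rw [← QuotientGroup.eq_one_iff (N := H)]
  have h3 : QuotientGroup.mk' H ⁅h * g ^ m, d⁆ = 1 := by
    rw [map_commutatorElement, map_mul, map_zpow]
    have : QuotientGroup.mk' H h = 1 := (QuotientGroup.eq_one_iff h).mpr hh
    rw [this, one_mul, commutatorElement_eq_one_iff_commute]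
    have h4 : Commute (QuotientGroup.mk' H d) (QuotientGroup.mk' H g) := h2
    exact (h4.symm.zpow_left m)
  exact h3

theorem SChain.iterate_eq_bot {G : Type*} [Group G] {K : Subgroup G} (h : SChain K) :
    ∃ n : ℕ, (fun X : Subgroup G => ⁅X, commutator G⁆)^[n] K = ⊥ := by
  have mono : ∀ (n : ℕ) (A B : Subgroup G), A ≤ B → (fun X : Subgroup G => ⁅X, commutator G⁆)^[n] A ≤
      (fun X : Subgroup G => ⁅X, commutator G⁆)^[n] B := by
    intro n
    induction n with
    | zero => intro A B h; exact h
    | succ n ih =>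
      intro A B h
      rw [Function.iterate_succ_apply, Function.iterate_succ_apply]
      exact ih _ _ (commutator_mono h le_rfl)
  induction h with
  | bot => exact ⟨0, rfl⟩
  | step H K g h hK e ih =>
    obtain ⟨n, hn⟩ := ih
    refine ⟨n + 1, ?_⟩
    rw [Function.iterate_succ_apply, eq_bot_iff, ← hn]
    apply mono
    haveI := h.normal
    haveI := hK
    exact SChain.commutator_step e

theorem commutator_isNilpotent_of_chain {G : Type*} [Group G] (h : SChain (⊤ : Subgroup G)) :
    Group.IsNilpotent (commutator G) := by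
  obtain ⟨n, hn⟩ := h.iterate_eq_bot
  rw [Subgroup.isNilpotent_iff_lowerCentralSeries]
  refine ⟨n, ?_⟩
  rw [eq_bot_iff, ← hn]
  have key : ∀ m : ℕ, (commutator G).lowerCentralSeries m ≤ (fun X : Subgroup G => ⁅X, commutator G⁆)^[m] ⊤ := by
    intro m
    induction m with
    | zero => exact le_top
    | succ m ih =>
      rw [Function.iterate_succ_apply', Subgroup.lowerCentralSeries_succ]
      exact commutator_mono ih le_rfl
  exact key n

/-- minimal normal subgroups below a chain member have prime order -/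
theorem SChain.prime_of_minimal {G : Type*} [Group G] [Finite G] {K : Subgroup G} (h : SChain K) (N : Subgroup G)
    [hN : N.Normal] (hNb : N ≠ ⊥) (hmin : ∀ L : Subgroup G, L.Normal → L ≤ N → L = ⊥ ∨ L = N) (hNK : N ≤ K) :
    (Nat.card N).Prime := by
  induction h with
  | bot => exact absurd (le_bot_iff.mp hNK) hNb
  | step H K g h hK e ih =>
    haveI := h.normal
    rcases hmin (N ⊓ H) inferInstance inf_le_left with h1 | h1
    · -- N embeds in K/H
      have hcyc : IsCyclic N := by
        let f : N →* zpowers (QuotientGroup.mk' H g) :=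
          { toFun := fun x => ⟨QuotientGroup.mk' H x, by
              have h2 : (x : G) ∈ H ⊔ zpowers g := by rw [← e]; exact hNK x.2
              obtain ⟨y, hy, z, hz, e2⟩ := mem_sup_of_normal_left.mp h2
              obtain ⟨k, rfl⟩ := mem_zpowers_iff.mp hz
              rw [← e2, map_mul, map_zpow]
              have : QuotientGroup.mk' H y = 1 := (QuotientGroup.eq_one_iff y).mpr hy
              rw [this, one_mul]
              exact zpow_mem (mem_zpowers _) k⟩
            map_one' := Subtype.ext (map_one _)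
            map_mul' := fun a b => Subtype.ext (map_mul _ _ _) }
        apply isCyclic_of_injective f
        rw [injective_iff_map_eq_one]
        intro x hx
        have h2 : QuotientGroup.mk' H (x : G) = 1 := congrArg Subtype.val hx
        have h3 : (x : G) ∈ N ⊓ H := ⟨x.2, (QuotientGroup.eq_one_iff _).mp h2⟩
        rw [h1, mem_bot] at h3
        exact Subtype.ext h3
      haveI : IsMulCommutative N := IsCyclic.isMulCommutative
      obtain ⟨p, hp, hpx⟩ := exists_prime_pow_eq_one_of_minimal N hNb hmin
      obtain ⟨x, hx⟩ := hcyc.exists_generator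
      have h2 : orderOf x = Nat.card N := orderOf_eq_card_of_forall_mem_zpowers hx
      have h3 : orderOf x ∣ p := orderOf_dvd_of_pow_eq_one (Subtype.ext (by simpa using hpx x x.2))
      rw [h2] at h3
      rcases (Nat.dvd_prime hp).mp h3 with h4 | h4
      · exact absurd (card_eq_one.mp h4) hNb
      · rw [h4]; exact hp
    · exact ih (inf_eq_left.mp h1)

end Cfsg.Agent.H1
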