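import Mathlib
import Cfsg.Agent.H1.Transfer

set_option autoImplicit false
set_option linter.unusedVariables false
set_option linter.unusedSectionVars false
set_option linter.unusedSimpArgs false

namespace Cfsg.Agent.H1

open Cfsg Subgroup MulAction

/-- the extended Thompson transfer lemma -/
theorem thompson_ext {G : Type*} [Group G] [Finite G]
    (hG : ∀ H : Subgroup G, H.index ≠ 2) (S : Sylow 2 G) (M : Subgroup G) (hMS : M ≤ (S : Subgroup G)) (hM : M.relIndex (S : Subgroup G) = 2)
    (n : ℕ) (hn : 1 ≤ n) (hord : ∀ y ∈ (S : Subgroup G), y ∉ M → 2 ^ (n - 1) < orderOf y)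
    (x : G) (hx : x ∈ (S : Subgroup G)) (hxn : orderOf x = 2 ^ n) :
    ∃ g : G, g * x * g⁻¹ ∈ M := by
  classical
  haveI : Fact (Nat.Prime 2) := ⟨Nat.prime_two⟩
  by_contra hcon
  push Not at hcon
  set M' : Subgroup (S : Subgroup G) := M.subgroupOf S with hM'
  have hidx : M'.index = 2 := hM
  haveI : M'.Normal := Subgroup.normal_of_index_eq_two hidx
  have hA : Nat.card ((S : Subgroup G) ⧸ M') = 2 := hidx
  haveI : IsCyclic ((S : Subgroup G) ⧸ M') := isCyclic_of_prime_card hA
  letI : CommGroup ((S : Subgroup G) ⧸ M') := IsCyclic.commGroup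
  let ϕ : (S : Subgroup G) →* ((S : Subgroup G) ⧸ M') := QuotientGroup.mk' M'
  have hxM : (⟨x, hx⟩ : (S : Subgroup G)) ∉ M' := by
    intro h
    apply hcon 1
    simpa using mem_subgroupOf.mp h
  set a : (S : Subgroup G) ⧸ M' := ϕ ⟨x, hx⟩ with ha
  have ha1 : a ≠ 1 := fun h => hxM ((QuotientGroup.eq_one_iff _).mp h)
  have hall : ∀ b : (S : Subgroup G) ⧸ M', b ≠ 1 → b = a := by
    intro b hb
    obtain ⟨s, rfl⟩ := QuotientGroup.mk'_surjective M' b
    have hs : s ∉ M' := fun h => hb ((QuotientGroup.eq_one_iff _).mpr h)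
    have h1 : s⁻¹ * ⟨x, hx⟩ ∈ M' := by
      rw [mul_mem_iff_of_index_two hidx, inv_mem_iff]
      exact ⟨fun h => absurd h hs, fun h => absurd h hxM⟩
    exact (QuotientGroup.eq.mpr h1)
  have hfin : (S : Subgroup G).FiniteIndex := inferInstance
  letI : Fintype (G ⧸ (S : Subgroup G)) := Fintype.ofFinite _
  letI : Fintype (Quotient (orbitRel (zpowers x) (G ⧸ (S : Subgroup G)))) := Fintype.ofFinite _
  have hV := MonoidHom.transfer_eq_prod_quotient_orbitRel_zpowers_quot ϕ x
  set V := MonoidHom.transfer ϕ with hVd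
  have hx2n : x ^ 2 ^ n = 1 := by rw [← hxn, pow_orderOf_eq_one]
  have hterm : ∀ q : Quotient (orbitRel (zpowers x) (G ⧸ (S : Subgroup G))),
      ϕ ⟨q.out.out⁻¹ * x ^ Function.minimalPeriod (x • ·) q.out * q.out.out,
            QuotientGroup.out_conj_pow_minimalPeriod_mem (S : Subgroup G) x q.out⟩ = if x • q.out = q.out then a else 1 := by
    intro q
    by_cases hfix : x • q.out = q.out
    · rw [if_pos hfix]
      apply hall
      intro h
      have h1 : (⟨q.out.out⁻¹ * x ^ Function.minimalPeriod (x • ·) q.out * q.out.out,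
            QuotientGroup.out_conj_pow_minimalPeriod_mem (S : Subgroup G) x q.out⟩ : (S : Subgroup G)) ∈ M' := (QuotientGroup.eq_one_iff _).mp h
      have hmp : Function.minimalPeriod (x • ·) q.out = 1 := Function.minimalPeriod_eq_one_iff_isFixedPt.mpr hfix
      have h2 := mem_subgroupOf.mp h1
      apply hcon (q.out.out)⁻¹
      rw [inv_inv]
      have h3 : q.out.out⁻¹ * x ^ Function.minimalPeriod (x • ·) q.out * q.out.out = q.out.out⁻¹ * x * q.out.out := by rw [hmp, pow_one]
      rw [← h3]; exact h2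
    · rw [if_neg hfix]
      by_contra hne
      have h1 : (⟨q.out.out⁻¹ * x ^ Function.minimalPeriod (x • ·) q.out * q.out.out,
            QuotientGroup.out_conj_pow_minimalPeriod_mem (S : Subgroup G) x q.out⟩ : (S : Subgroup G)) ∉ M' := fun h => hne ((QuotientGroup.eq_one_iff _).mpr h)
      set mp := Function.minimalPeriod (x • ·) q.out with hmp
      have hmp1 : mp ≠ 1 := fun h => hfix (Function.minimalPeriod_eq_one_iff_isFixedPt.mp h)
      have hdvd : mp ∣ 2 ^ n := by
        apply Function.IsPeriodicPt.minimalPeriod_dvd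
        change ((x • ·)^[2 ^ n]) q.out = q.out
        rw [smul_iterate, hx2n]
        exact one_smul _ _
      obtain ⟨k, hk, hk2⟩ := (Nat.dvd_prime_pow Nat.prime_two).mp hdvd
      have hk0 : k ≠ 0 := by
        rintro rfl
        exact hmp1 hk2
      have h2 : (q.out.out⁻¹ * x ^ mp * q.out.out) ^ 2 ^ (n - 1) = 1 := by
        have h3 : (q.out.out⁻¹ * x ^ mp * q.out.out) ^ 2 ^ (n - 1) = q.out.out⁻¹ * (x ^ mp) ^ 2 ^ (n - 1) * q.out.out := by
          have := conj_pow (i := 2 ^ (n - 1)) (a := q.out.out⁻¹) (b := x ^ mp)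
          rwa [inv_inv] at this
        rw [h3, ← pow_mul, hk2]
        obtain ⟨k', rfl⟩ : ∃ k', k = k' + 1 := ⟨k - 1, by omega⟩
        have e : 2 ^ (k' + 1) * 2 ^ (n - 1) = 2 ^ n * 2 ^ k' := by
          rw [← pow_add, ← pow_add]; congr 1; omega
        rw [e, pow_mul, hx2n, one_pow]; group
      have h4 := hord _ (QuotientGroup.out_conj_pow_minimalPeriod_mem (S : Subgroup G) x q.out) (fun h => h1 (mem_subgroupOf.mpr h))
      have h5 := Nat.le_of_dvd (by positivity) (orderOf_dvd_of_pow_eq_one h2)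
      exact absurd h4 (not_lt.mpr h5)
  rw [Finset.prod_congr rfl (fun q _ => hterm q), Finset.prod_ite, Finset.prod_const_one, mul_one, Finset.prod_const] at hV
  set c := (Finset.univ.filter (fun q : Quotient (orbitRel (zpowers x) (G ⧸ (S : Subgroup G))) => x • q.out = q.out)).card with hc
  have haa : a * a = 1 := by
    have := pow_card_eq_one' (x := a)
    rw [hA, pow_two] at this
    exact this
  have hzfix : ∀ w : G ⧸ (S : Subgroup G), x • w = w ↔ w ∈ fixedPoints (zpowers x) (G ⧸ (S : Subgroup G)) := by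
    intro w
    constructor
    · rintro h ⟨g, i, rfl⟩
      have h1 : (x : G) ∈ stabilizer G w := h
      exact (zpow_mem h1 i : (x ^ i : G) ∈ stabilizer G w)
    · intro h
      exact h ⟨x, mem_zpowers x⟩
  have hcodd : c % 2 = 1 := by
    have h1 : c = Nat.card (fixedPoints (zpowers x) (G ⧸ (S : Subgroup G))) := by
      rw [hc, ← Fintype.card_subtype, ← Nat.card_eq_fintype_card]
      apply Nat.card_congr
      refine { toFun := fun q => ⟨q.1.out, (hzfix _).mp q.2⟩, invFun := fun w => ⟨Quotient.mk'' w.1, ?_⟩, left_inv := ?_, right_inv := ?_ }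
      · have h2 : (Quotient.mk'' w.1 : Quotient (orbitRel (zpowers x) (G ⧸ (S : Subgroup G)))).out = w.1 := by
          have h3 : (orbitRel (zpowers x) (G ⧸ (S : Subgroup G))) (Quotient.mk'' w.1 : Quotient (orbitRel (zpowers x) (G ⧸ (S : Subgroup G)))).out w.1 := Quotient.mk_out w.1
          obtain ⟨g, hg⟩ := h3
          rw [← hg]; exact w.2 g
        rw [h2]; exact (hzfix _).mpr w.2
      · intro q
        exact Subtype.ext (Quotient.out_eq' q.1)
      · intro w
        apply Subtype.ext
        have h3 : (orbitRel (zpowers x) (G ⧸ (S : Subgroup G))) (Quotient.mk'' w.1 : Quotient (orbitRel (zpowers x) (G ⧸ (S : Subgroup G)))).out w.1 := Quotient.mk_out w.1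
        obtain ⟨g, hg⟩ := h3
        change (Quotient.mk'' w.1 : Quotient (orbitRel (zpowers x) (G ⧸ (S : Subgroup G)))).out = w.1
        rw [← hg]; exact w.2 g
    have hpx : IsPGroup 2 (zpowers x) := IsPGroup.of_card (n := n) (by rw [Nat.card_zpowers, hxn])
    have h2 := hpx.card_modEq_card_fixedPoints (G ⧸ (S : Subgroup G))
    have h3 : ¬ 2 ∣ Nat.card (G ⧸ (S : Subgroup G)) := S.not_dvd_index
    rw [h1]
    have h4 : Nat.card (G ⧸ (S : Subgroup G)) % 2 = Nat.card (fixedPoints (zpowers x) (G ⧸ (S : Subgroup G))) % 2 := h2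
    omega
  have hVx : V x ≠ 1 := by
    rw [hV]
    obtain ⟨l, hl⟩ : ∃ l, c = 2 * l + 1 := ⟨c / 2, by omega⟩
    rw [hl, pow_succ, pow_mul, pow_two, haa, one_pow, one_mul]
    exact ha1
  have hr : Nat.card V.range = 2 := by
    have h1 : Nat.card V.range ∣ 2 := (card_subgroup_dvd_card V.range).trans hA.dvd
    rcases (Nat.dvd_prime Nat.prime_two).mp h1 with h2 | h2
    · exfalso
      rw [Subgroup.card_eq_one] at h2
      apply hVx
      have h3 : V x ∈ V.range := ⟨x, rfl⟩
      rw [h2] at h3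
      exact mem_bot.mp h3
    · exact h2
  exact hG V.ker (by rw [index_ker, hr])

end Cfsg.Agent.H1
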